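import Cfsg.Agent.F4PrimeGraph.WeylCheck
import Cfsg.Agent.Chevalley.Data.SysF4
import Cfsg.Agent.Chevalley.Weyl
import Cfsg.Agent.Chevalley.Poincare
import Cfsg.Prelude.Def_ChevF4

/-!
What the checks give for linear functionals on the root lattice of type F4 modulo a prime, scaled
by an element of the Weyl group.
-/

set_option autoImplicit false

namespace CfsgLib.F4PrimeGraph

open Cfsg.Lie CfsgLib.Chevalley

theorem rc_coord : ∀ r : Fin 48, rc r =
    (tabF4.coord 4 0 r, tabF4.coord 4 1 r, tabF4.coord 4 2 r, tabF4.coord 4 3 r) := by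
  decide +kernel

theorem rfl4_eq : ∀ (i : Fin 4) (r : Fin 48), rfl4 i r = chevF4.reflectRoot i r := by
  decide +kernel

theorem simple_eq : chevF4.simple 0 = 33 ∧ chevF4.simple 1 = 27 ∧ chevF4.simple 2 = 25 ∧
    chevF4.simple 3 = 24 := by decide +kernel

local notation "S" => sysF4

/-- The fundamental roots. -/
noncomputable abbrev sf (i : Fin 4) : Fin chevF4.nroots := Sys.simpleF S i

/-- The quadruple of a word. -/
noncomputable def quad (L : List (Fin chevF4.rank)) : ℕ :=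
  code (Sys.wperm S L (sf 0)) (Sys.wperm S L (sf 1)) (Sys.wperm S L (sf 2)) (Sys.wperm S L (sf 3))

theorem code_div {a b c d : ℕ} (hb : b < 48) (hc : c < 48) (hd : d < 48) :
    code a b c d / 110592 = a ∧ code a b c d / 2304 % 48 = b ∧ code a b c d / 48 % 48 = c ∧
      code a b c d % 48 = d := by
  simp only [code]
  omega

theorem lt48 (L : List (Fin chevF4.rank)) (i : Fin 4) : (Sys.wperm S L (sf i) : ℕ) < 48 :=
  (Sys.wperm S L (sf i)).isLt

theorem quad_nil : quad [] = code 33 27 25 24 := by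
  obtain ⟨h0, h1, h2, h3⟩ := simple_eq
  simp only [quad, Sys.wperm, List.map_nil, List.prod_nil, Equiv.Perm.one_apply]
  show code (chevF4.simple 0) (chevF4.simple 1) (chevF4.simple 2) (chevF4.simple 3) = _
  rw [h0, h1, h2, h3]

theorem quad_cons (i : Fin chevF4.rank) (L : List (Fin chevF4.rank)) :
    quad (i :: L) = step i (quad L) := by
  have h : ∀ j : Fin 4, (Sys.wperm S (i :: L) (sf j) : ℕ) =
      rfl4 i (Sys.wperm S L (sf j) : ℕ) := fun j => by
    rw [Sys.wperm_cons, Equiv.Perm.mul_apply, Sys.srefl_val]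
    exact (rfl4_eq i (Sys.wperm S L (sf j))).symm
  obtain ⟨e0, e1, e2, e3⟩ := code_div (a := (Sys.wperm S L (sf 0) : ℕ)) (lt48 L 1) (lt48 L 2)
    (lt48 L 3)
  simp only [quad, step, h] at *
  rw [e0, e1, e2, e3]

theorem quad_mem (L : List (Fin chevF4.rank)) : ∃ b ∈ wtab, quad L ∈ b := by
  suffices h : memTab (quad L) = true by
    simp only [memTab, List.contains_iff_mem] at h
    by_cases hlt : quad L / 110592 < wtab.length
    · exact ⟨_, List.getElem_mem hlt, by rwa [← List.getD_eq_getElem _ [] hlt]⟩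
    · rw [List.getD_eq_default _ _ (Nat.le_of_not_lt hlt)] at h
      simp at h
  induction L with
  | nil => rw [quad_nil]; exact memTab_one
  | cons i L ih =>
    rw [quad_cons]
    simp only [memTab, List.contains_iff_mem] at ih
    have hb : ∃ b ∈ wtab, quad L ∈ b := by
      by_cases hlt : quad L / 110592 < wtab.length
      · exact ⟨_, List.getElem_mem hlt, by rwa [← List.getD_eq_getElem _ [] hlt]⟩
      · rw [List.getD_eq_default _ _ (Nat.le_of_not_lt hlt)] at ih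
        simp at ih
    obtain ⟨b, hb1, hb2⟩ := hb
    have := List.all_eq_true.1 (List.all_eq_true.1 wtab_closed b hb1) _ hb2
    exact List.all_eq_true.1 this i (List.mem_range.2 i.isLt)

theorem check_quad {f : ℕ → Bool} (h : wtab.all (·.all f) = true) (L : List (Fin chevF4.rank)) :
    f (quad L) = true := by
  obtain ⟨b, hb1, hb2⟩ := quad_mem L
  exact List.all_eq_true.1 (List.all_eq_true.1 h b hb1) _ hb2

variable {r : ℕ}

/-- A functional on vectors. -/
def ev (φ : Fin 4 → ZMod r) : V4 → ZMod r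
  | (x, y, z, t) => (x : ZMod r) * φ 0 + (y : ZMod r) * φ 1 + (z : ZMod r) * φ 2 +
      (t : ZMod r) * φ 3

theorem ev_zero (φ : Fin 4 → ZMod r) : ev φ (0, 0, 0, 0) = 0 := by simp [ev]

theorem ev_add (φ : Fin 4 → ZMod r) (x y : V4) : ev φ (x + y) = ev φ x + ev φ y := by
  obtain ⟨x0, x1, x2, x3⟩ := x
  obtain ⟨y0, y1, y2, y3⟩ := y
  simp only [ev, Prod.mk_add_mk]
  push_cast
  ring

theorem ev_sub (φ : Fin 4 → ZMod r) (x y : V4) : ev φ (x - y) = ev φ x - ev φ y := by
  obtain ⟨x0, x1, x2, x3⟩ := x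
  obtain ⟨y0, y1, y2, y3⟩ := y
  simp only [ev, Prod.mk_sub_mk]
  push_cast
  ring

/-- The vector of a root evaluates to the linear combination of the values. -/
theorem ev_rc (φ : Fin 4 → ZMod r) (s : Fin chevF4.nroots) :
    ev φ (rc s) = ∑ m : Fin 4, ((Sys.vec S (m : ℕ) s : ℤ) : ZMod r) * φ m := by
  rw [rc_coord s, Fin.sum_univ_four]
  rfl

theorem act_rc (L : List (Fin chevF4.rank)) (s : Fin chevF4.nroots) :
    act (quad L) (rc s) = rc (Sys.wperm S L s : ℕ) := by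
  obtain ⟨e0, e1, e2, e3⟩ := code_div (a := (Sys.wperm S L (sf 0) : ℕ)) (lt48 L 1) (lt48 L 2)
    (lt48 L 3)
  have h : ∀ j, j < 4 → tabF4.coord 4 j (Sys.wperm S L s) =
      ∑ m : Fin 4, tabF4.coord 4 m s * tabF4.coord 4 j (Sys.wperm S L (sf m)) :=
    fun j hj => Sys.vec_wperm S L s j hj
  rw [rc_coord (Sys.wperm S L s), rc_coord s]
  simp only [act, quad, e0, e1, e2, e3, rc_coord (Sys.wperm S L (sf _)), Prod.mk.injEq]
  refine ⟨?_, ?_, ?_, ?_⟩
  · rw [h 0 (by norm_num), Fin.sum_univ_four]; rfl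
  · rw [h 1 (by norm_num), Fin.sum_univ_four]; rfl
  · rw [h 2 (by norm_num), Fin.sum_univ_four]; rfl
  · rw [h 3 (by norm_num), Fin.sum_univ_four]; rfl

theorem rc_simple (m : Fin 4) : rc (sf m : ℕ) = [((1, 0, 0, 0) : V4), (0, 1, 0, 0), (0, 0, 1, 0),
    (0, 0, 0, 1)].getD m (0, 0, 0, 0) := by
  obtain ⟨h0, h1, h2, h3⟩ := simple_eq
  fin_cases m
  · show rc (chevF4.simple 0) = _; rw [h0]; decide +kernel
  · show rc (chevF4.simple 1) = _; rw [h1]; decide +kernel
  · show rc (chevF4.simple 2) = _; rw [h2]; decide +kernel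
  · show rc (chevF4.simple 3) = _; rw [h3]; decide +kernel

/-- The functional is scaled by `a` under the word. -/
def Scaled (φ : Fin 4 → ZMod r) (L : List (Fin chevF4.rank)) (a : ZMod r) : Prop :=
  ∀ s : Fin chevF4.nroots, ev φ (rc (Sys.wperm S L s : ℕ)) = a * ev φ (rc s)

theorem ev_act {φ : Fin 4 → ZMod r} {L : List (Fin chevF4.rank)} {a : ZMod r}
    (h : Scaled φ L a) (x : V4) : ev φ (act (quad L) x) = a * ev φ x := by
  have hb : ∀ m : Fin 4, ev φ (rc (Sys.wperm S L (sf m) : ℕ)) = a * φ m := fun m => by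
    rw [h (sf m), rc_simple]
    fin_cases m <;> simp [ev]
  obtain ⟨e0, e1, e2, e3⟩ := code_div (a := (Sys.wperm S L (sf 0) : ℕ)) (lt48 L 1) (lt48 L 2)
    (lt48 L 3)
  obtain ⟨x0, x1, x2, x3⟩ := x
  have h0 := hb 0
  have h1 := hb 1
  have h2 := hb 2
  have h3 := hb 3
  simp only [act, quad, e0, e1, e2, e3]
  generalize rc (Sys.wperm S L (sf 0) : ℕ) = c0 at *
  generalize rc (Sys.wperm S L (sf 1) : ℕ) = c1 at *
  generalize rc (Sys.wperm S L (sf 2) : ℕ) = c2 at *
  generalize rc (Sys.wperm S L (sf 3) : ℕ) = c3 at *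
  obtain ⟨a0, a1, a2, a3⟩ := c0
  obtain ⟨b0, b1, b2, b3⟩ := c1
  obtain ⟨g0, g1, g2, g3⟩ := c2
  obtain ⟨d0, d1, d2, d3⟩ := c3
  simp only [ev] at h0 h1 h2 h3 ⊢
  push_cast
  linear_combination (x0 : ZMod r) * h0 + (x1 : ZMod r) * h1 + (x2 : ZMod r) * h2 +
    (x3 : ZMod r) * h3

/-- A nonzero functional killing four columns kills the determinant. -/
theorem det4_eq_zero [Fact r.Prime] {φ : Fin 4 → ZMod r} (hφ : φ ≠ 0) {a b c d : V4}
    (ha : ev φ a = 0) (hb : ev φ b = 0) (hc : ev φ c = 0) (hd : ev φ d = 0) :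
    (det4 a b c d : ZMod r) = 0 := by
  obtain ⟨a0, a1, a2, a3⟩ := a
  obtain ⟨b0, b1, b2, b3⟩ := b
  obtain ⟨c0, c1, c2, c3⟩ := c
  obtain ⟨d0, d1, d2, d3⟩ := d
  set M : Matrix (Fin 4) (Fin 4) (ZMod r) :=
    !![(a0 : ZMod r), b0, c0, d0; a1, b1, c1, d1; a2, b2, c2, d2; a3, b3, c3, d3] with hM
  have h : M.det = 0 := by
    refine Matrix.exists_vecMul_eq_zero_iff.1 ⟨φ, hφ, ?_⟩
    funext j
    simp only [ev] at ha hb hc hd
    fin_cases j <;> simp [hM, Matrix.vecMul, dotProduct, Fin.sum_univ_four]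
    · linear_combination ha
    · linear_combination hb
    · linear_combination hc
    · linear_combination hd
  rw [← h, hM]
  simp only [det4, Matrix.det_succ_row_zero, Fin.sum_univ_succ, Matrix.det_fin_zero]
  simp [Fin.succAbove, Matrix.submatrix]
  ring

theorem not_good (hr : r.Prime) (h2 : r ≠ 2) (h3 : r ≠ 3) {d : ℤ} (hd : (d : ZMod r) = 0) :
    good d = false := by
  rw [ZMod.intCast_zmod_eq_zero_iff_dvd, Int.natCast_dvd] at hd
  by_contra h
  simp only [Bool.not_eq_false, good, Bool.and_eq_true, bne_iff_ne, beq_iff_eq] at h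
  have h1 : r ∣ 2 ^ 48 * 3 ^ 32 := hd.trans (Nat.dvd_of_mod_eq_zero h.2)
  rcases hr.dvd_mul.1 h1 with h4 | h4
  · exact h2 ((Nat.prime_dvd_prime_iff_eq hr Nat.prime_two).1 (hr.dvd_of_dvd_pow h4))
  · exact h3 ((Nat.prime_dvd_prime_iff_eq hr Nat.prime_three).1 (hr.dvd_of_dvd_pow h4))

theorem detOf_eq_zero [Fact r.Prime] {φ : Fin 4 → ZMod r} (hφ : φ ≠ 0) {f : V4 → V4}
    (h : ∀ x, ev φ (f x) = 0) : (detOf f : ZMod r) = 0 :=
  det4_eq_zero hφ (h _) (h _) (h _) (h _)

theorem five_le_of_orderOf [Fact r.Prime] {a : ZMod r} {k : ℕ} (ha : orderOf a = k) (hk : 3 ≤ k) :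
    r ≠ 2 ∧ r ≠ 3 ∧ a ≠ 0 := by
  have ha0 : a ≠ 0 := by rintro rfl; simp at ha; omega
  have h1 := ZMod.orderOf_dvd_card_sub_one ha0
  rw [ha] at h1
  have h2 := Nat.le_of_dvd (by have := (Fact.out : r.Prime).two_le; omega) h1
  exact ⟨by omega, by omega, ha0⟩

theorem pow_half [Fact r.Prime] {a : ZMod r} {k : ℕ} (ha : orderOf a = 2 * k) (hk : 0 < k) :
    a ^ k = -1 := by
  have h1 : (a ^ k) * (a ^ k) = 1 := by
    rw [← pow_add, ← two_mul, ← ha, pow_orderOf_eq_one]
  rcases mul_self_eq_one_iff.1 h1 with h | h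
  · have := Nat.le_of_dvd hk (orderOf_dvd_of_pow_eq_one h)
    omega
  · exact h

theorem phi3_zero [Fact r.Prime] {a : ZMod r} (ha : orderOf a = 3) : a ^ 2 + a + 1 = 0 := by
  have h1 : a ^ 3 = 1 := ha ▸ pow_orderOf_eq_one a
  have h2 : a ≠ 1 := fun h => by simp [h] at ha
  refine (mul_eq_zero.1 (show (a - 1) * (a ^ 2 + a + 1) = 0 by linear_combination h1)).resolve_left
    (sub_ne_zero.2 h2)

theorem phi6_zero [Fact r.Prime] {a : ZMod r} (ha : orderOf a = 6) : a ^ 2 - a + 1 = 0 := by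
  have h1 : a ^ 3 = -1 := pow_half (k := 3) ha (by norm_num)
  refine (mul_eq_zero.1 (show (a + 1) * (a ^ 2 - a + 1) = 0 by linear_combination h1)).resolve_left
    fun h => ?_
  have h2 : a ^ 2 = 1 := by linear_combination (a - 1) * h
  have := Nat.le_of_dvd (by norm_num) (orderOf_dvd_of_pow_eq_one h2)
  omega

theorem phi12_zero [Fact r.Prime] {a : ZMod r} (ha : orderOf a = 12) :
    a ^ 4 - a ^ 2 + 1 = 0 := by
  have h1 : a ^ 6 = -1 := pow_half (k := 6) ha (by norm_num)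
  refine (mul_eq_zero.1
    (show (a ^ 2 + 1) * (a ^ 4 - a ^ 2 + 1) = 0 by linear_combination h1)).resolve_left fun h => ?_
  have h2 : a ^ 4 = 1 := by linear_combination (a ^ 2 - 1) * h
  have := Nat.le_of_dvd (by norm_num) (orderOf_dvd_of_pow_eq_one h2)
  omega

variable [Fact r.Prime] {φ : Fin 4 → ZMod r} {L : List (Fin chevF4.rank)} {a : ZMod r}

theorem not_good_three (hφ : φ ≠ 0) (h : Scaled φ L a) (ha : orderOf a = 3) :
    good (detOf (phi3 (quad L))) = false := by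
  obtain ⟨h2, h3, -⟩ := five_le_of_orderOf ha le_rfl
  refine not_good Fact.out h2 h3 (detOf_eq_zero hφ fun x => ?_)
  rw [phi3, ev_add, ev_add, ev_act h, ev_act h]
  linear_combination ev φ x * phi3_zero ha

theorem not_good_four (hφ : φ ≠ 0) (h : Scaled φ L a) (ha : orderOf a = 4) :
    good (detOf (phi4 (quad L))) = false := by
  obtain ⟨h2, h3, -⟩ := five_le_of_orderOf ha (by norm_num)
  refine not_good Fact.out h2 h3 (detOf_eq_zero hφ fun x => ?_)
  rw [phi4, ev_add, ev_act h, ev_act h]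
  linear_combination ev φ x * pow_half (k := 2) ha (by norm_num)

theorem not_good_six (hφ : φ ≠ 0) (h : Scaled φ L a) (ha : orderOf a = 6) :
    good (detOf (phi6 (quad L))) = false := by
  obtain ⟨h2, h3, -⟩ := five_le_of_orderOf ha (by norm_num)
  refine not_good Fact.out h2 h3 (detOf_eq_zero hφ fun x => ?_)
  rw [phi6, ev_add, ev_sub, ev_act h, ev_act h]
  linear_combination ev φ x * phi6_zero ha

/-- One element does not scale by elements of two of the orders three, four, six. -/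
theorem false_of_pair {s : ℕ} [Fact s.Prime] {ψ : Fin 4 → ZMod s} {b : ZMod s}
    (hφ : φ ≠ 0) (hψ : ψ ≠ 0) (h : Scaled φ L a) (h' : Scaled ψ L b)
    (hk : (orderOf a = 3 ∧ orderOf b = 4) ∨ (orderOf a = 3 ∧ orderOf b = 6) ∨
      (orderOf a = 4 ∧ orderOf b = 6)) : False := by
  have hc := check_quad wtab_pair L
  simp only [okPair, Bool.and_eq_true, Bool.or_eq_true] at hc
  obtain ⟨⟨h34, h36⟩, h46⟩ := hc
  rcases hk with ⟨h1, h2⟩ | ⟨h1, h2⟩ | ⟨h1, h2⟩
  · simp [not_good_three hφ h h1, not_good_four hψ h' h2] at h34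
  · simp [not_good_three hφ h h1, not_good_six hψ h' h2] at h36
  · simp [not_good_four hφ h h1, not_good_six hψ h' h2] at h46

theorem top_aux (f : ℕ → V4 → V4) (P : ∀ {t : ℕ}, ZMod t → ZMod t)
    (hf : ∀ {t : ℕ} (χ : Fin 4 → ZMod t) (b : ZMod t), Scaled χ L b →
      ∀ x, ev χ (f (quad L) x) = P b * ev χ x)
    (hc : okTop f (quad L) = true) (h2 : r ≠ 2) (h3 : r ≠ 3) (hφ : φ ≠ 0) (h : Scaled φ L a)
    (hP : P a = 0) :
    (∀ s : Fin chevF4.nroots, ev φ (rc s) ≠ 0) ∧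
      ∀ {t : ℕ} [Fact t.Prime] (ψ : Fin 4 → ZMod t) (b : ZMod t),
        ψ ≠ 0 → Scaled ψ L b → P b = 0 := by
  have hbad : good (detOf (f (quad L))) = false :=
    not_good Fact.out h2 h3 (detOf_eq_zero hφ fun x => by rw [hf φ a h, hP, zero_mul])
  simp only [okTop, hbad, Bool.false_or, Bool.and_eq_true, List.all_eq_true, beq_iff_eq,
    List.mem_range] at hc
  obtain ⟨hz, hroots⟩ := hc
  refine ⟨fun s hs => ?_, fun {t} _ ψ b hψ h' => ?_⟩
  · have := hroots s s.isLt
    rw [not_good Fact.out h2 h3 (det4_eq_zero hφ hs (by rw [ev_act h, hs, mul_zero])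
      (by rw [ev_act h, ev_act h, hs, mul_zero, mul_zero])
      (by rw [ev_act h, ev_act h, ev_act h, hs]; simp))] at this
    exact Bool.false_ne_true this
  · obtain ⟨m, hm⟩ := Function.ne_iff.1 hψ
    have hx : ∀ x ∈ basis, P b * ev ψ x = 0 := fun x hx => by
      rw [← hf ψ b h', hz x hx, ev_zero]
    have hx' : P b * ψ m = 0 := by
      fin_cases m
      · simpa [ev] using hx (1, 0, 0, 0) (by simp [basis])
      · simpa [ev] using hx (0, 1, 0, 0) (by simp [basis])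
      · simpa [ev] using hx (0, 0, 1, 0) (by simp [basis])
      · simpa [ev] using hx (0, 0, 0, 1) (by simp [basis])
    exact (mul_eq_zero.1 hx').resolve_right hm

/-- An element scaling by an element of order eight. -/
theorem top_eight (hφ : φ ≠ 0) (h : Scaled φ L a) (ha : orderOf a = 8) :
    (∀ s : Fin chevF4.nroots, ev φ (rc s) ≠ 0) ∧
      ∀ {t : ℕ} [Fact t.Prime] (ψ : Fin 4 → ZMod t) (b : ZMod t),
        ψ ≠ 0 → Scaled ψ L b → b ^ 4 + 1 = 0 := by
  obtain ⟨h2, h3, -⟩ := five_le_of_orderOf ha (by norm_num)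
  refine top_aux phi8 (fun b => b ^ 4 + 1) (fun χ b hb x => ?_) (check_quad wtab_top8 L) h2 h3 hφ h
    (by linear_combination pow_half (k := 4) ha (by norm_num))
  rw [phi8, ev_add, ev_act hb, ev_act hb, ev_act hb, ev_act hb]
  ring

/-- An element scaling by an element of order twelve. -/
theorem top_twelve (hφ : φ ≠ 0) (h : Scaled φ L a) (ha : orderOf a = 12) :
    (∀ s : Fin chevF4.nroots, ev φ (rc s) ≠ 0) ∧
      ∀ {t : ℕ} [Fact t.Prime] (ψ : Fin 4 → ZMod t) (b : ZMod t),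
        ψ ≠ 0 → Scaled ψ L b → b ^ 4 - b ^ 2 + 1 = 0 := by
  obtain ⟨h2, h3, -⟩ := five_le_of_orderOf ha (by norm_num)
  refine top_aux phi12 (fun b => b ^ 4 - b ^ 2 + 1) (fun χ b hb x => ?_)
    (check_quad wtab_top12 L) h2 h3 hφ h (phi12_zero ha)
  rw [phi12, ev_add, ev_sub, ev_act hb, ev_act hb, ev_act hb, ev_act hb]
  ring

theorem ev_ksum (h : Scaled φ L 1) : ∀ (k : ℕ) (x : V4),
    ev φ (ksum (quad L) k x) = k * ev φ x
  | 0, x => by simp [ksum, ev_zero]
  | k + 1, x => by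
    rw [ksum, ev_add, ev_ksum h k, ev_act h, one_mul]
    push_cast
    ring

/-- The stabiliser of a regular functional is trivial. -/
theorem eq_one_of_fixed (h2 : r ≠ 2) (h3 : r ≠ 3) (h : Scaled φ L 1)
    (hreg : ∀ s : Fin chevF4.nroots, ev φ (rc s) ≠ 0) : Sys.wperm S L = 1 := by
  have hc := check_quad wtab_orbit L
  simp only [okOrbit, Bool.or_eq_true, beq_iff_eq, List.any_eq_true, List.mem_range] at hc
  rcases hc with hc | ⟨s, hs, k, hk, hks⟩
  · rw [← quad_nil] at hc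
    refine (Sys.wperm_ext S (M := []) fun m => Fin.ext ?_).trans (by simp [Sys.wperm])
    obtain ⟨a0, a1, a2, a3⟩ := code_div (a := (Sys.wperm S L (sf 0) : ℕ)) (lt48 L 1) (lt48 L 2)
      (lt48 L 3)
    obtain ⟨b0, b1, b2, b3⟩ := code_div (a := (Sys.wperm S [] (sf 0) : ℕ)) (lt48 [] 1) (lt48 [] 2)
      (lt48 [] 3)
    rw [← quad] at a0 a1 a2 a3 b0 b1 b2 b3
    rw [hc] at a0 a1 a2 a3
    match m with
    | ⟨0, _⟩ => exact a0.symm.trans b0
    | ⟨1, _⟩ => exact a1.symm.trans b1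
    | ⟨2, _⟩ => exact a2.symm.trans b2
    | ⟨3, _⟩ => exact a3.symm.trans b3
  · exfalso
    have e := ev_ksum h k (rc s)
    rw [hks, ev_zero] at e
    have hk0 : (k : ZMod r) ≠ 0 := by
      rw [Ne, ZMod.natCast_eq_zero_iff]
      intro hdvd
      have hk' : k ∣ 2 ^ 48 * 3 ^ 32 := by fin_cases hk <;> norm_num
      rcases (Fact.out : r.Prime).dvd_mul.1 (hdvd.trans hk') with h4 | h4
      · exact h2 ((Nat.prime_dvd_prime_iff_eq Fact.out Nat.prime_two).1
          ((Fact.out : r.Prime).dvd_of_dvd_pow h4))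
      · exact h3 ((Nat.prime_dvd_prime_iff_eq Fact.out Nat.prime_three).1
          ((Fact.out : r.Prime).dvd_of_dvd_pow h4))
    exact hreg ⟨s, hs⟩ ((mul_eq_zero.1 e.symm).resolve_left hk0)

end CfsgLib.F4PrimeGraph
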