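import Mathlib
import Cfsg.Agent.ChevTori.LangChev
import Cfsg.Agent.ChevTori.Regular
import Cfsg.Agent.ChevTori.Main
import Cfsg.Agent.ChevField.Fixed
import Cfsg.Agent.CrossCharSylow.Torus
import Cfsg.Agent.F4AltSection.Torus
import Cfsg.Agent.SolvableStructure.Wielandt
import Cfsg.Agent.F4PrimeGraph.Weyl

/-!
Torus elements of prime order in Chevalley groups of type F4 as functionals on the root lattice, and
their transport into the finite group by Lang's theorem.
-/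

set_option autoImplicit false

namespace CfsgLib.F4PrimeGraph

open Cfsg.Lie CfsgLib.Chevalley CfsgLib.ChevField

local notation "S" => sysF4

variable {K : Type*} [Field K]

theorem torusVal_eq (c : ℕ → Kˣ) (s : Fin chevF4.nroots) :
    torusVal chevF4 c s = ∏ m : Fin 4,
      torusVal chevF4 c (sf m : ℕ) ^ (Sys.vec S (m : ℕ) s : ℤ) := by
  rw [CrossCharSylow.torusVal_eq_prod_simple S K c s.isLt, Finset.prod_range]
  rfl

theorem cartan_inv : ∀ m k : Fin 4,
    ∑ j : Fin 4, ([[2, 3, 4, 2], [3, 6, 8, 4], [2, 4, 6, 3], [1, 2, 3, 2]].getD (m : ℕ) []).getD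
      (j : ℕ) (0 : ℤ) * chevF4.cartan (j : ℕ) (chevF4.simple (k : ℕ)) =
        if m = k then 1 else 0 := by
  decide +kernel

/-- Arbitrary values on the fundamental roots. -/
theorem exists_values (v : Fin 4 → Kˣ) :
    ∃ c : ℕ → Kˣ, ∀ k : Fin 4, torusVal chevF4 c (sf k : ℕ) = v k := by
  refine ⟨fun j => ∏ m : Fin 4,
    v m ^ ([[2, 3, 4, 2], [3, 6, 8, 4], [2, 4, 6, 3], [1, 2, 3, 2]].getD (m : ℕ) []).getD j
      (0 : ℤ), fun k => ?_⟩
  rw [torusVal, show chevF4.rank = 4 from rfl, Finset.prod_range]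
  simp only [← Finset.prod_zpow, ← _root_.zpow_mul]
  rw [Finset.prod_comm]
  simp only [ChevTori.prod_zpow_sum]
  rw [Finset.prod_eq_single k]
  · show v k ^ (∑ j : Fin 4, _ * chevF4.cartan (j : ℕ) (chevF4.simple (k : ℕ))) = v k
    rw [cartan_inv k k, if_pos rfl, zpow_one]
  · intro m _ hm
    show v m ^ (∑ j : Fin 4, _ * chevF4.cartan (j : ℕ) (chevF4.simple (k : ℕ))) = 1
    rw [cartan_inv m k, if_neg hm, zpow_zero]
  · simp

theorem tor_ext' {c c' : ℕ → Kˣ}
    (h : ∀ m : Fin 4, torusVal chevF4 c (sf m : ℕ) = torusVal chevF4 c' (sf m : ℕ)) :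
    tor chevF4 K c = tor chevF4 K c' :=
  CrossCharSylow.tor_ext S K fun m hm => h ⟨m, hm⟩

theorem torusVal_eq_of_tor {c c' : ℕ → Kˣ} (h : tor chevF4 K c = tor chevF4 K c')
    (s : Fin chevF4.nroots) : torusVal chevF4 c s = torusVal chevF4 c' s := by
  have e := congrArg (fun g : GL chevF4.Idx K => (g : Matrix chevF4.Idx chevF4.Idx K)) h
  simp only [Sys.tor_val] at e
  exact Units.ext (dg_inj e s.isLt)

theorem torusVal_pow (c : ℕ → Kˣ) (n : ℕ) (s : ℕ) :
    torusVal chevF4 (c ^ n) s = torusVal chevF4 c s ^ n := by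
  simp only [torusVal, Pi.pow_apply, ← Finset.prod_pow]
  refine Finset.prod_congr rfl fun j _ => ?_
  rw [← zpow_natCast (c j) n, ← zpow_natCast (c j ^ chevF4.cartan j s) n, ← _root_.zpow_mul,
    ← _root_.zpow_mul, mul_comm]

/-- A fixed element of the group over an extension comes from the group over the field. -/
theorem exists_preimage {F : Type*} [Field F] (f : F →+* K) (σ : K →+* K)
    (hfix : ∀ x, σ x = x → ∃ y, f y = x) {g : GL chevF4.Idx K} (hg : g ∈ chevF4.group K)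
    (hσ : gmap chevF4 σ g = g) : ∃ y : ↥(chevF4.group F), gmap chevF4 f (y : GL chevF4.Idx F) = g := by
  obtain ⟨a, ⟨a0, ha0, rfl⟩, c, hc, b, ⟨b0, hb0, rfl⟩, rfl⟩ :=
    exists_fixed_decomp S f σ hfix hg hσ
  have hv : ∀ m : Fin 4, ∃ u : Fˣ, Units.map (f : F →* K) u = torusVal chevF4 c (sf m : ℕ) := by
    intro m
    obtain ⟨v, hv⟩ := hfix _ (torusVal_fixed S σ c hc (sf m).isLt)
    exact ⟨Units.mk0 v fun h0 => (torusVal chevF4 c (sf m : ℕ)).ne_zero (by rw [← hv, h0, map_zero]),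
      Units.ext hv⟩
  choose u hu using hv
  obtain ⟨c0, hc0⟩ := exists_values u
  have htor : gmap chevF4 f (tor chevF4 F c0) = tor chevF4 K c := by
    rw [gmap_tor S]
    refine tor_ext' fun m => ?_
    rw [← hu m, ← hc0 m]
    simp only [torusVal, map_prod, map_zpow]
  have hmem : tor chevF4 F c0 ∈ chevF4.group F :=
    Sys.diagonal_le_group S F (by rw [Sys.diagonal_eq S]; exact ⟨c0, rfl⟩)
  exact ⟨⟨a0 * tor chevF4 F c0 * b0, mul_mem (mul_mem ha0 hmem) hb0⟩, by
    simp only [map_mul, htor]⟩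

theorem perm_image (n : ↥(chevF4.monomialSubgroup K)) {c c' : ℕ → Kˣ}
    (h : (n : GL chevF4.Idx K) * tor chevF4 K c * (n : GL chevF4.Idx K)⁻¹ = tor chevF4 K c')
    (s : Fin chevF4.nroots) :
    torusVal chevF4 c' (Sys.perm S K n s) = torusVal chevF4 c s :=
  F4AltSection.torusVal_perm S n h s

/-- A twisted fixed torus element of prime order gives a scaled functional. -/
theorem exists_scaled {r : ℕ} [hr : Fact r.Prime] (c : ℕ → Kˣ)
    (hord : orderOf (tor chevF4 K c) = r) (n : ↥(chevF4.monomialSubgroup K)) (q : ℕ)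
    (h : (n : GL chevF4.Idx K) * tor chevF4 K c ^ q * (n : GL chevF4.Idx K)⁻¹ = tor chevF4 K c)
    (L : List (Fin chevF4.rank)) (hL : Sys.perm S K n = Sys.wperm S L) :
    ∃ φ : Fin 4 → ZMod r, φ ≠ 0 ∧ Scaled φ L (q : ZMod r) ∧
      (∀ s : Fin chevF4.nroots, torusVal chevF4 c s = 1 → ev φ (rc s) = 0) ∧
      (∀ s : Fin chevF4.nroots, ev φ (rc s) = 0 → torusVal chevF4 c s = 1) ∧
      ∀ s t : Fin chevF4.nroots, torusVal chevF4 c s = torusVal chevF4 c t →
        ev φ (rc s) = ev φ (rc t) := by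
  have hpow : tor chevF4 K (c ^ r) = tor chevF4 K 1 := by
    rw [map_pow, ← hord, pow_orderOf_eq_one, map_one]
  have h1 : ∀ s : Fin chevF4.nroots, torusVal chevF4 c s ^ r = 1 := fun s => by
    rw [← torusVal_pow, torusVal_eq_of_tor hpow s]
    simp [torusVal]
  obtain ⟨m0, hm0⟩ : ∃ m : Fin 4, torusVal chevF4 c (sf m : ℕ) ≠ 1 := by
    by_contra hcon
    push Not at hcon
    have e : tor chevF4 K c = tor chevF4 K 1 := tor_ext' fun m => by
      rw [hcon m]; simp [torusVal]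
    rw [e, map_one, orderOf_one] at hord
    exact hr.out.ne_one hord.symm
  set ζ := torusVal chevF4 c (sf m0 : ℕ) with hζdef
  have hζ : orderOf ζ = r := orderOf_eq_prime (h1 (sf m0)) hm0
  have hprim : IsPrimitiveRoot (ζ : K) r :=
    IsPrimitiveRoot.coe_units_iff.mpr (hζ ▸ IsPrimitiveRoot.orderOf ζ)
  have hk : ∀ s : Fin chevF4.nroots, ∃ k : ℤ, ζ ^ k = torusVal chevF4 c s := fun s => by
    obtain ⟨i, -, hi⟩ := hprim.eq_pow_of_pow_eq_one
      (show ((torusVal chevF4 c s : Kˣ) : K) ^ r = 1 by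
        rw [← Units.val_pow_eq_pow_val, h1, Units.val_one])
    exact ⟨i, by rw [zpow_natCast]; exact Units.ext (by simpa using hi)⟩
  choose k hk using hk
  set φ : Fin 4 → ZMod r := fun m => (k (sf m) : ZMod r) with hφ
  have hev : ∀ s : Fin chevF4.nroots, ev φ (rc s) = (k s : ZMod r) := fun s => by
    have e := torusVal_eq c s
    simp only [← hk, ← _root_.zpow_mul, ChevTori.prod_zpow_sum, zpow_eq_zpow_iff_modEq, hζ] at e
    rw [ev_rc, (ZMod.intCast_eq_intCast_iff _ _ r).mpr e, Int.cast_sum]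
    exact Finset.sum_congr rfl fun m _ => by rw [Int.cast_mul, mul_comm]
  refine ⟨φ, fun h0 => hm0 ?_, fun s => ?_, fun s hs => ?_, fun s hs => ?_, fun s t hst => ?_⟩
  · have := congrFun h0 m0
    rw [hφ, Pi.zero_apply, ZMod.intCast_zmod_eq_zero_iff_dvd, ← hζ,
      orderOf_dvd_iff_zpow_eq_one, hk] at this
    exact this
  · have e := CrossCharSylow.torusVal_perm S K n c q h s
    rw [hL, ← hk, ← hk, ← zpow_natCast, ← _root_.zpow_mul, zpow_eq_zpow_iff_modEq, hζ] at e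
    rw [hev, hev, (ZMod.intCast_eq_intCast_iff _ _ r).mpr e, Int.cast_mul, Int.cast_natCast,
      mul_comm]
  · rw [hev, ZMod.intCast_zmod_eq_zero_iff_dvd, ← hζ, orderOf_dvd_iff_zpow_eq_one, hk, hs]
  · rw [hev, ZMod.intCast_zmod_eq_zero_iff_dvd, ← hζ, orderOf_dvd_iff_zpow_eq_one, hk] at hs
    exact hs
  · rw [← hk, ← hk, zpow_eq_zpow_iff_modEq, hζ, ← ZMod.intCast_eq_intCast_iff] at hst
    rw [hev, hev, hst]

/-- A scaled functional gives a twisted fixed torus element. -/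
theorem exists_torus_element {r : ℕ} [hr : Fact r.Prime] {ζ : Kˣ} (hζ : orderOf ζ = r)
    {φ : Fin 4 → ZMod r} {L : List (Fin chevF4.rank)} {q : ℕ} (hφ : φ ≠ 0)
    (h : Scaled φ L (q : ZMod r)) :
    ∃ c : ℕ → Kˣ, orderOf (tor chevF4 K c) = r ∧
      (Sys.wN S K L : GL chevF4.Idx K) * tor chevF4 K c ^ q *
        (Sys.wN S K L : GL chevF4.Idx K)⁻¹ = tor chevF4 K c ∧
      ∀ s : Fin chevF4.nroots, ev φ (rc s) = 0 → torusVal chevF4 c s = 1 := by
  obtain ⟨c, hc⟩ := exists_values (fun m : Fin 4 => ζ ^ (φ m).val)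
  have hzm : ∀ a b : ℤ, ζ ^ a = ζ ^ b ↔ (a : ZMod r) = (b : ZMod r) := fun a b => by
    rw [zpow_eq_zpow_iff_modEq, hζ, ← ZMod.intCast_eq_intCast_iff]
  let j : Fin chevF4.nroots → ℤ := fun s => ∑ m : Fin 4, ((φ m).val : ℤ) * Sys.vec S (m : ℕ) s
  have hj : ∀ s, (j s : ZMod r) = ev φ (rc s) := fun s => by
    rw [ev_rc, Int.cast_sum]
    exact Finset.sum_congr rfl fun m _ => by
      rw [Int.cast_mul, Int.cast_natCast, ZMod.natCast_zmod_val, mul_comm]
  have hval : ∀ s : Fin chevF4.nroots, torusVal chevF4 c s = ζ ^ j s := fun s => by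
    rw [torusVal_eq]
    simp only [hc, ← zpow_natCast, ← _root_.zpow_mul, ChevTori.prod_zpow_sum]
    rfl
  refine ⟨c, orderOf_eq_prime ?_ ?_, ?_, fun s hs => ?_⟩
  · rw [← map_pow, ← map_one (tor chevF4 K)]
    refine tor_ext' fun m => ?_
    rw [torusVal_pow, hc, ← pow_mul, mul_comm, pow_mul, orderOf_dvd_iff_pow_eq_one.1 hζ.dvd,
      one_pow]
    simp [torusVal]
  · intro he
    obtain ⟨m, hm⟩ := Function.ne_iff.1 hφ
    rw [← map_one (tor chevF4 K)] at he
    have e := torusVal_eq_of_tor he (sf m)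
    rw [hc, show torusVal chevF4 (1 : ℕ → Kˣ) (sf m : ℕ) = 1 by simp [torusVal],
      ← orderOf_dvd_iff_pow_eq_one, hζ, ← ZMod.natCast_eq_zero_iff, ZMod.natCast_zmod_val] at e
    exact hm e
  · have hmem : (Sys.wN S K L : GL chevF4.Idx K) * tor chevF4 K c ^ q *
        (Sys.wN S K L : GL chevF4.Idx K)⁻¹ ∈ chevF4.diagonalSubgroup K := by
      refine (Subgroup.mem_normalizer_iff.mp
        (Sys.monomial_le_normalizer S K (Sys.wN S K L).2) _).mp (pow_mem ?_ q)
      rw [Sys.diagonal_eq S]; exact ⟨c, rfl⟩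
    rw [Sys.diagonal_eq S] at hmem
    obtain ⟨c', hc'⟩ := hmem
    rw [← hc']
    refine tor_ext' fun m => ?_
    set s := (Sys.wperm S L).symm (sf m) with hs
    have hsm : Sys.wperm S L s = sf m := (Sys.wperm S L).apply_symm_apply _
    have e := perm_image (Sys.wN S K L) (c := c ^ q) (c' := c') (by rw [map_pow]; exact hc'.symm) s
    rw [Sys.perm_wN, hsm, torusVal_pow, hval, ← zpow_natCast, ← _root_.zpow_mul] at e
    rw [e, hval, hzm, Int.cast_mul, hj, hj, Int.cast_natCast, mul_comm, ← h s, hsm]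
  · rw [hval, ← zpow_zero ζ, hzm, hj, hs, Int.cast_zero]

variable {F : Type*} [Field F]

/-- Conjugate a cyclic group with large Sylow tori into the torus. -/
theorem exists_conj_toral [Finite K] (ι : F →+* K) (φ : K →+* K) {q : ℕ}
    (hφι : ∀ x, φ (ι x) = ι x) (hφ : ∀ x, φ x = x ^ q) (x : ↥(chevF4.group F))
    (hv : ∀ p : ℕ, p.Prime → p ∣ orderOf x → padicValNat p (Nat.card ↥(chevF4.group K)) =
      padicValNat p (Nat.card ↥(chevF4.diagonalSubgroup K))) :
    ∃ g ∈ chevF4.group K,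
      g * gmap chevF4 ι (x : GL chevF4.Idx F) * g⁻¹ ∈ chevF4.diagonalSubgroup K ∧
      ∃ n : ↥(chevF4.monomialSubgroup K), ∀ y : ↥(chevF4.group F),
        g * gmap chevF4 ι (y : GL chevF4.Idx F) * g⁻¹ ∈ chevF4.diagonalSubgroup K →
          (n : GL chevF4.Idx K) * (g * gmap chevF4 ι (y : GL chevF4.Idx F) * g⁻¹) ^ q *
            (n : GL chevF4.Idx K)⁻¹ = g * gmap chevF4 ι (y : GL chevF4.Idx F) * g⁻¹ := by
  classical
  have : Finite (GL chevF4.Idx K) := inferInstance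
  set G := chevF4.group K
  set T : Subgroup ↥G := (chevF4.diagonalSubgroup K).subgroupOf G with hT
  have hcT : Nat.card ↥T = Nat.card ↥(chevF4.diagonalSubgroup K) :=
    Nat.card_congr (Subgroup.subgroupOfEquivOfLe (Sys.diagonal_le_group S K)).toEquiv
  let x' : ↥G := ⟨gmap chevF4 ι (x : GL chevF4.Idx F), gmap_mem S ι x.2⟩
  have hox : orderOf x' = orderOf x := by
    rw [← Subgroup.orderOf_coe, ← Subgroup.orderOf_coe x]
    exact orderOf_injective (gmap chevF4 ι) (gmap_injective ι) _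
  set M := orderOf x ^ Nat.card ↥T with hM
  have hcomm : ∀ a ∈ T, ∀ b ∈ T, a * b = b * a := fun a ha b hb =>
    Subtype.ext (Sys.diagonal_comm S K ha hb)
  let H : Subgroup ↥G :=
    { carrier := {t | t ∈ T ∧ t ^ M = 1}
      one_mem' := ⟨one_mem _, one_pow _⟩
      mul_mem' := fun {a b} ha hb => ⟨mul_mem ha.1 hb.1, by
        rw [Commute.mul_pow (hcomm a ha.1 b hb.1), ha.2, hb.2, one_mul]⟩
      inv_mem' := fun {a} ha => ⟨inv_mem ha.1, by rw [inv_pow, ha.2, inv_one]⟩ }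
  have hHnil : Group.IsNilpotent ↥H :=
    let _ : CommGroup ↥H := { (inferInstance : Group ↥H) with
      mul_comm := fun a b => Subtype.ext (hcomm _ a.2.1 _ b.2.1) }
    inferInstance
  have hprimes : ∀ p : ℕ, p.Prime → p ∣ Nat.card ↥H → p ∣ orderOf x := by
    intro p hp hd
    haveI := Fact.mk hp
    obtain ⟨t, ht⟩ := exists_prime_orderOf_dvd_card' p hd
    have h1 : orderOf t ∣ M := orderOf_dvd_of_pow_eq_one (Subtype.ext (by simpa using t.2.2))
    exact hp.dvd_of_dvd_pow (ht ▸ h1)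
  have hsyl : ∀ p : ℕ, p.Prime → p ∣ orderOf x →
      p ^ padicValNat p (Nat.card ↥G) ∣ Nat.card ↥H := by
    intro p hp hd
    haveI := Fact.mk hp
    rw [hv p hp hd, ← hcT]
    obtain ⟨P⟩ : Nonempty (Sylow p ↥T) := inferInstance
    have hle : (P : Subgroup ↥T).map T.subtype ≤ H := by
      rintro _ ⟨t, ht, rfl⟩
      refine ⟨t.2, ?_⟩
      obtain ⟨i, hi⟩ := P.2 ⟨t, ht⟩
      have hot : orderOf t ∣ M := by
        obtain ⟨j, hj, e⟩ := (Nat.dvd_prime_pow hp).1
          (orderOf_dvd_of_pow_eq_one (congrArg Subtype.val hi : t ^ p ^ i = 1))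
        rw [e]
        refine dvd_trans (pow_dvd_pow p ?_) (pow_dvd_pow_of_dvd hd _)
        have h2 : p ^ j ∣ Nat.card ↥T := e ▸ orderOf_dvd_natCard t
        exact ((Nat.lt_pow_self hp.one_lt).le.trans (Nat.le_of_dvd Nat.card_pos h2))
      show (t : ↥G) ^ M = 1
      rw [← Subgroup.coe_pow, orderOf_dvd_iff_pow_eq_one.1 hot, Subgroup.coe_one]
    have := Subgroup.card_dvd_of_le hle
    rwa [Subgroup.card_subtype, P.card_eq_multiplicity, Nat.factorization_def _ hp] at this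
  have hHall : (Nat.card ↥H).Coprime H.index := Nat.coprime_of_dvd fun p hp h1 h2 => by
    haveI := Fact.mk hp
    have h3 : p ^ (padicValNat p (Nat.card ↥G) + 1) ∣ Nat.card ↥G := by
      rw [← H.card_mul_index, pow_succ]
      exact mul_dvd_mul (H.card_mul_index.symm ▸ hsyl p hp (hprimes p hp h1)) h2
    exact absurd ((padicValNat_dvd_iff_le Nat.card_pos.ne').1 h3) (by omega)
  obtain ⟨g0, hg0⟩ := Schmidt.wielandt _ H (Subgroup.zpowers x') rfl hHnil hHall fun p hp hd => by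
    haveI := Fact.mk hp
    rw [Nat.card_zpowers, hox] at hd
    refine (dvd_pow_self p ?_).trans (hsyl p hp hd)
    have h1 : p ∣ Nat.card ↥G := (hox ▸ hd : p ∣ orderOf x').trans (orderOf_dvd_natCard x')
    have := one_le_padicValNat_of_dvd Nat.card_pos.ne' h1
    omega
  have hx' : g0⁻¹ * x' * g0 ∈ H := by
    have h1 := hg0 (Subgroup.mem_zpowers x')
    rw [Subgroup.mem_pointwise_smul_iff_inv_smul_mem, MulAut.smul_def, MulAut.conj_inv_apply] at h1
    exact h1
  set g : GL chevF4.Idx K := ((g0⁻¹ : ↥G) : GL chevF4.Idx K) with hg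
  refine ⟨g, (g0⁻¹).2, by simpa [hg, x', hT, Subgroup.mem_subgroupOf] using hx'.1, ?_⟩
  set gφ := gmap chevF4 φ
  have hzmem : g * (gφ g)⁻¹ ∈ chevF4.group K :=
    mul_mem (g0⁻¹).2 (inv_mem (gmap_mem S φ (g0⁻¹).2))
  obtain ⟨n, hn⟩ := CrossCharSylow.exists_monomial_conj S K hzmem q
  refine ⟨n, fun y hy => hn _ hy ?_⟩
  have hpow : gφ (g * gmap chevF4 ι (y : GL chevF4.Idx F) * g⁻¹) =
      (g * gmap chevF4 ι (y : GL chevF4.Idx F) * g⁻¹) ^ q := by
    have h := hy
    rw [Sys.diagonal_eq S] at h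
    obtain ⟨c, hc⟩ := h
    rw [← hc, gmap_tor S, ← map_pow]
    congr 1
    funext j
    exact Units.ext (by simp [hφ])
  have hfix : gφ (gmap chevF4 ι (y : GL chevF4.Idx F)) = gmap chevF4 ι (y : GL chevF4.Idx F) := by
    refine Units.ext (Matrix.ext fun i j => ?_)
    show φ (ι _) = ι _
    exact hφι _
  rw [← hpow, map_mul, map_mul, map_inv, hfix]
  group

end CfsgLib.F4PrimeGraph
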