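import Mathlib
import Cfsg.Agent.F4PrimeGraph.Torus

/-!
Elements of order a product of two primes in F4 over a finite field of characteristic two, from
twisted tori.
-/

set_option autoImplicit false

namespace CfsgLib.F4PrimeGraph

open Cfsg.Lie CfsgLib.Chevalley CfsgLib.ChevField

local notation "S" => sysF4

/-- The determinant of the map minus a scalar. -/
def chiAt (w : ℕ) (m : ℤ) : ℤ :=
  detOf fun x => act w x + (-m * x.1, -m * x.2.1, -m * x.2.2.1, -m * x.2.2.2)

theorem scaled_of_cols {r : ℕ} {φ : Fin 4 → ZMod r} {L : List (Fin chevF4.rank)} {a : ZMod r}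
    (h : ∀ x ∈ basis, ev φ (act (quad L) x) = a * ev φ x) : Scaled φ L a := by
  intro s
  rw [← act_rc]
  have h0 := h (1, 0, 0, 0) (by simp [basis])
  have h1 := h (0, 1, 0, 0) (by simp [basis])
  have h2 := h (0, 0, 1, 0) (by simp [basis])
  have h3 := h (0, 0, 0, 1) (by simp [basis])
  generalize rc s = x
  generalize quad L = w at *
  obtain ⟨x0, x1, x2, x3⟩ := x
  revert h0 h1 h2 h3
  simp only [act]
  generalize rc (w / 110592) = c0
  generalize rc (w / 2304 % 48) = c1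
  generalize rc (w / 48 % 48) = c2
  generalize rc (w % 48) = c3
  obtain ⟨a0, a1, a2, a3⟩ := c0
  obtain ⟨b0, b1, b2, b3⟩ := c1
  obtain ⟨g0, g1, g2, g3⟩ := c2
  obtain ⟨d0, d1, d2, d3⟩ := c3
  simp only [ev]
  push_cast
  intro h0 h1 h2 h3
  linear_combination (x0 : ZMod r) * h0 + (x1 : ZMod r) * h1 + (x2 : ZMod r) * h2 +
    (x3 : ZMod r) * h3

theorem exists_scaled_of_det {r : ℕ} [Fact r.Prime] {q : ℕ} (L : List (Fin chevF4.rank))
    (h : (chiAt (quad L) (q : ℤ) : ZMod r) = 0) :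
    ∃ φ : Fin 4 → ZMod r, φ ≠ 0 ∧ Scaled φ L (q : ZMod r) := by
  set f : V4 → V4 := fun x => act (quad L) x + (-(q : ℤ) * x.1, -(q : ℤ) * x.2.1,
    -(q : ℤ) * x.2.2.1, -(q : ℤ) * x.2.2.2) with hf
  obtain ⟨φ, hφ, hker⟩ : ∃ φ : Fin 4 → ZMod r, φ ≠ 0 ∧ ∀ x ∈ basis, ev φ (f x) = 0 := by
    change (detOf f : ZMod r) = 0 at h
    rw [detOf] at h
    generalize he0 : f (1, 0, 0, 0) = e0 at h
    generalize he1 : f (0, 1, 0, 0) = e1 at h
    generalize he2 : f (0, 0, 1, 0) = e2 at h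
    generalize he3 : f (0, 0, 0, 1) = e3 at h
    obtain ⟨a0, a1, a2, a3⟩ := e0
    obtain ⟨b0, b1, b2, b3⟩ := e1
    obtain ⟨c0, c1, c2, c3⟩ := e2
    obtain ⟨d0, d1, d2, d3⟩ := e3
    obtain ⟨φ, hφ, hv⟩ := Matrix.exists_vecMul_eq_zero_iff.2
      (show Matrix.det !![(a0 : ZMod r), b0, c0, d0; a1, b1, c1, d1; a2, b2, c2, d2;
          a3, b3, c3, d3] = 0 by
        rw [← h]
        simp only [det4, Matrix.det_succ_row_zero, Fin.sum_univ_succ, Matrix.det_fin_zero]
        simp [Fin.succAbove, Matrix.submatrix]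
        ring)
    have v0 := congrFun hv 0
    have v1 := congrFun hv 1
    have v2 := congrFun hv 2
    have v3 := congrFun hv 3
    simp [Matrix.vecMul, dotProduct, Fin.sum_univ_four] at v0 v1 v2 v3
    refine ⟨φ, hφ, fun x hx => ?_⟩
    simp only [basis, List.mem_cons, List.not_mem_nil, or_false] at hx
    rcases hx with rfl | rfl | rfl | rfl
    · rw [he0, ev]; linear_combination v0
    · rw [he1, ev]; linear_combination v1
    · rw [he2, ev]; linear_combination v2
    · rw [he3, ev]; linear_combination v3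
  refine ⟨φ, hφ, scaled_of_cols fun x hx => ?_⟩
  have := hker x hx
  rw [hf, ev_add] at this
  obtain ⟨x0, x1, x2, x3⟩ := x
  simp only [ev] at this ⊢
  push_cast at this
  linear_combination this

theorem rc_inj : ∀ a b : Fin 48, rc a = rc b → a = b := by decide +kernel

/-- The root fixed by the words used. -/
def root47 : Fin chevF4.nroots := ⟨47, by decide⟩

theorem wperm_root47 {L : List (Fin chevF4.rank)} (h : act (quad L) (rc 47) = rc 47) :
    Sys.wperm S L root47 = root47 :=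
  rc_inj _ _ ((act_rc L root47).symm.trans h)

universe u

variable {F : Type u} [Field F] [Fintype F] {n : ℕ}

theorem two_eq_zero (hn : 1 ≤ n) (hF : Fintype.card F = 2 ^ n) : (2 : F) = 0 := by
  have h := FiniteField.cast_card_eq_zero F
  rw [hF, Nat.cast_pow] at h
  exact_mod_cast eq_zero_of_pow_eq_zero h

theorem exists_root_of_unity (hn : 1 ≤ n) (hF : Fintype.card F = 2 ^ n) {r : ℕ} (hr : r.Prime)
    (hr2 : r ≠ 2) : ∃ ζ : (AlgebraicClosure F)ˣ, orderOf ζ = r := by
  haveI : CharP (AlgebraicClosure F) 2 := by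
    refine CharTwo.of_one_ne_zero_of_two_eq_zero one_ne_zero ?_
    rw [← map_ofNat (algebraMap F (AlgebraicClosure F)) 2, two_eq_zero hn hF, map_zero]
  haveI : NeZero (r : AlgebraicClosure F) := ⟨fun h => hr2
    ((Nat.prime_dvd_prime_iff_eq Nat.prime_two hr).1
      ((CharP.cast_eq_zero_iff (AlgebraicClosure F) 2 r).1 h)).symm⟩
  haveI : NeZero r := ⟨hr.ne_zero⟩
  obtain ⟨z, hz⟩ := HasEnoughRootsOfUnity.exists_primitiveRoot (AlgebraicClosure F) r
  obtain ⟨ζ, rfl⟩ := hz.isUnit hr.ne_zero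
  exact ⟨ζ, ((IsPrimitiveRoot.coe_units_iff.1 hz).eq_orderOf).symm⟩

/-- A word and functionals for two odd primes give an element of product order. -/
theorem exists_odd (hn : 1 ≤ n) (hF : Fintype.card F = 2 ^ n) {r s : ℕ} [hr : Fact r.Prime]
    [hs : Fact s.Prime] (hr2 : r ≠ 2) (hs2 : s ≠ 2) (hrs : r ≠ s)
    (L : List (Fin chevF4.rank))
    (hR : (chiAt (quad L) (Fintype.card F : ℤ) : ZMod r) = 0)
    (hS : (chiAt (quad L) (Fintype.card F : ℤ) : ZMod s) = 0) :
    ∃ x : ↥(chevF4.group F), orderOf x = r * s := by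
  set q := Fintype.card F
  let K := AlgebraicClosure F
  let f : F →+* K := algebraMap F K
  obtain ⟨σ, hσ, hσfix⟩ := ChevTori.exists_frobenius F K
  obtain ⟨g, hg, hgy⟩ := ChevTori.exists_lang S Fintype.one_lt_card σ hσ
    (Sys.monomial_le_group S K (Sys.wN S K L).2)
  have hgσ : gmap chevF4 σ g = g * (Sys.wN S K L : GL chevF4.Idx K) := by rw [← hgy]; group
  have key : ∀ {t : ℕ} [Fact t.Prime], t ≠ 2 → (chiAt (quad L) (q : ℤ) : ZMod t) = 0 →
      ∃ c : ℕ → Kˣ, orderOf (tor chevF4 K c) = t ∧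
        gmap chevF4 σ (g * tor chevF4 K c * g⁻¹) = g * tor chevF4 K c * g⁻¹ := by
    intro t ht ht2 hc
    obtain ⟨φ, hφ, hsc⟩ := exists_scaled_of_det L hc
    obtain ⟨ζ, hζ⟩ := exists_root_of_unity hn hF ht.out ht2
    obtain ⟨c, hord, hfix, -⟩ := exists_torus_element hζ hφ hsc
    refine ⟨c, hord, ?_⟩
    have e : gmap chevF4 σ (tor chevF4 K c) = tor chevF4 K c ^ q := by
      rw [gmap_tor S, ← map_pow]
      congr 1
      funext j
      exact Units.ext (by simp [hσ, q])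
    rw [map_mul, map_mul, map_inv, e, hgσ]
    conv_rhs => rw [← hfix]
    group
    rfl
  obtain ⟨c1, ho1, hf1⟩ := key hr2 hR
  obtain ⟨c2, ho2, hf2⟩ := key hs2 hS
  have hm : ∀ c : ℕ → Kˣ, g * tor chevF4 K c * g⁻¹ ∈ chevF4.group K := fun c =>
    mul_mem (mul_mem hg (Sys.diagonal_le_group S K (by rw [Sys.diagonal_eq S]; exact ⟨c, rfl⟩)))
      (inv_mem hg)
  obtain ⟨y, hy⟩ := exists_preimage f σ hσfix
    (g := g * tor chevF4 K c1 * g⁻¹ * (g * tor chevF4 K c2 * g⁻¹)) (mul_mem (hm c1) (hm c2))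
    (by rw [map_mul, hf1, hf2])
  refine ⟨y, ?_⟩
  rw [← Subgroup.orderOf_coe, ← orderOf_injective (gmap chevF4 f) (gmap_injective f), hy,
    show g * tor chevF4 K c1 * g⁻¹ * (g * tor chevF4 K c2 * g⁻¹) =
      MulAut.conj g (tor chevF4 K c1 * tor chevF4 K c2) by rw [MulAut.conj_apply]; group,
    MulEquiv.orderOf_eq, Commute.orderOf_mul_eq_mul_orderOf_of_coprime, ho1, ho2]
  · exact Sys.diagonal_comm S K (by rw [Sys.diagonal_eq S]; exact ⟨c1, rfl⟩)
      (by rw [Sys.diagonal_eq S]; exact ⟨c2, rfl⟩)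
  · rw [ho1, ho2]
    exact (Nat.coprime_primes hr.out hs.out).2 hrs

/-- A word fixing a root and a functional vanishing there give an element of order twice a prime. -/
theorem exists_two (hn : 1 ≤ n) (hF : Fintype.card F = 2 ^ n) {r : ℕ} [hr : Fact r.Prime]
    (hr2 : r ≠ 2) (L : List (Fin chevF4.rank)) (hL : act (quad L) (rc 47) = rc 47)
    {φ : Fin 4 → ZMod r} (hφ : φ ≠ 0) (hsc : Scaled φ L ((Fintype.card F : ℕ) : ZMod r))
    (h47 : ev φ (rc 47) = 0) : ∃ x : ↥(chevF4.group F), orderOf x = 2 * r := by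
  set q := Fintype.card F
  let K := AlgebraicClosure F
  let f : F →+* K := algebraMap F K
  obtain ⟨σ, hσ, hσfix⟩ := ChevTori.exists_frobenius F K
  obtain ⟨g, hg, hgy⟩ := ChevTori.exists_lang S Fintype.one_lt_card σ hσ
    (Sys.monomial_le_group S K (Sys.wN S K L).2)
  set w : GL chevF4.Idx K := (Sys.wN S K L : GL chevF4.Idx K) with hw
  have hgσ : gmap chevF4 σ g = g * w := by rw [← hgy]; group
  obtain ⟨ζ, hζ⟩ := exists_root_of_unity hn hF hr.out hr2
  obtain ⟨c, hord, hfix, hone⟩ := exists_torus_element hζ hφ hsc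
  set t := tor chevF4 K c with ht
  have hσt : gmap chevF4 σ t = t ^ q := by
    rw [ht, gmap_tor S, ← map_pow]
    congr 1
    funext j
    exact Units.ext (by simp [hσ, q])
  obtain ⟨a, ha, hct⟩ := Sys.conj_root S K (Sys.wN S K L) root47
  rw [Sys.perm_wN, wperm_root47 hL] at hct
  have hq1 : 0 < q - 1 := Nat.sub_pos_of_lt Fintype.one_lt_card
  obtain ⟨u, hu⟩ := IsAlgClosed.exists_pow_nat_eq a⁻¹ hq1
  have hu0 : u ≠ 0 := by
    rintro rfl
    rw [zero_pow hq1.ne'] at hu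
    exact inv_ne_zero ha hu.symm
  have huq : a * u ^ q = u := by
    rw [show q = q - 1 + 1 by omega, pow_succ, hu, ← mul_assoc, mul_inv_cancel₀ ha, one_mul]
  set z := Sys.xG S K (root47 : ℕ) u with hz
  have h2K : (2 : K) = 0 := by rw [← map_ofNat f 2, two_eq_zero hn hF, map_zero]
  have hzord : orderOf z = 2 := by
    refine orderOf_eq_prime ?_ ?_
    · rw [pow_two, hz, Sys.xG_add, ← two_mul, h2K, zero_mul, Sys.xG_zero]
    · rw [hz, Ne, Sys.xG_eq_one_iff S K root47.isLt]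
      exact hu0
  have hcomm : Commute z t := by
    have e := Sys.tor_conj S K c root47.isLt u
    rw [hone root47 h47, Units.val_one, one_mul, mul_inv_eq_iff_eq_mul] at e
    exact e.symm
  have hzfix : gmap chevF4 σ (g * z * g⁻¹) = g * z * g⁻¹ := by
    rw [map_mul, map_mul, map_inv, hgσ, hz, gmap_xG, hσ]
    calc g * w * Sys.xG S K (root47 : ℕ) (u ^ q) * (g * w)⁻¹
        = g * (w * Sys.xG S K (root47 : ℕ) (u ^ q) * w⁻¹) * g⁻¹ := by group
      _ = _ := by rw [hw, (hct _).1, huq]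
  have htfix : gmap chevF4 σ (g * t * g⁻¹) = g * t * g⁻¹ := by
    rw [map_mul, map_mul, map_inv, hσt, hgσ]
    conv_rhs => rw [← hfix]
    group
    rfl
  obtain ⟨y, hy⟩ := exists_preimage f σ hσfix (g := g * z * g⁻¹ * (g * t * g⁻¹))
    (mul_mem (mul_mem (mul_mem hg (Sys.xG_mem S K root47.isLt u)) (inv_mem hg))
      (mul_mem (mul_mem hg (Sys.diagonal_le_group S K (by rw [Sys.diagonal_eq S]; exact ⟨c, rfl⟩)))
        (inv_mem hg)))
    (by rw [map_mul, hzfix, htfix])
  refine ⟨y, ?_⟩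
  rw [← Subgroup.orderOf_coe, ← orderOf_injective (gmap chevF4 f) (gmap_injective f), hy,
    show g * z * g⁻¹ * (g * t * g⁻¹) = MulAut.conj g (z * t) by rw [MulAut.conj_apply]; group,
    MulEquiv.orderOf_eq, Commute.orderOf_mul_eq_mul_orderOf_of_coprime hcomm, hzord, hord]
  rw [hzord, hord]
  exact (Nat.coprime_primes Nat.prime_two hr.out).2 (Ne.symm hr2)

end CfsgLib.F4PrimeGraph
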