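import Mathlib
import Cfsg.Agent.F4PrimeGraph.Torus
import Cfsg.Agent.F4PrimeGraph.Exists
import Cfsg.Agent.CrossCharSylow.Main

/-!
No elements of certain orders in F4 over a finite field of characteristic two.
-/

set_option autoImplicit false

namespace CfsgLib.F4PrimeGraph

open Cfsg.Lie CfsgLib.Chevalley CfsgLib.ChevField

local notation "S" => sysF4

universe u

variable {F : Type u} [Field F] [Fintype F] {n : ℕ}

theorem odd_card (hn : 1 ≤ n) (hF : Fintype.card F = 2 ^ n) {r : ℕ} (hr : r.Prime) (hr2 : r ≠ 2) :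
    ¬ r ∣ Fintype.card F := fun h =>
  hr2 ((Nat.prime_dvd_prime_iff_eq hr Nat.prime_two).1 (hr.dvd_of_dvd_pow (hF ▸ h)))

/-- The orders of `q` modulo the odd prime divisors of the group order. -/
theorem orderOf_mem (hn : 1 ≤ n) (hF : Fintype.card F = 2 ^ n) {r : ℕ} [hr : Fact r.Prime]
    (hr2 : r ≠ 2) (hrG : r ∣ Nat.card ↥(chevF4.group F)) :
    orderOf ((Fintype.card F : ℕ) : ZMod r) ∈ ({1, 2, 3, 4, 6, 8, 12} : Finset ℕ) := by
  rw [Cfsg.Agent.S1062.result rfl] at hrG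
  set q := Fintype.card F
  have hq1 : 1 ≤ q := Fintype.card_pos
  have key : ∀ k, r ∣ q ^ k - 1 → orderOf (q : ZMod r) ∣ k := fun k h =>
    (Zsigmondy.dvd_pow_sub_one_iff hq1 k).mp h
  have h : ∃ k ∈ [2, 6, 8, 12], r ∣ q ^ k - 1 := by
    rcases hr.out.dvd_mul.1 hrG with h | h
    rcases hr.out.dvd_mul.1 h with h | h
    rcases hr.out.dvd_mul.1 h with h | h
    rcases hr.out.dvd_mul.1 h with h | h
    · exact absurd (hr.out.dvd_of_dvd_pow h) (odd_card hn hF hr.out hr2)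
    all_goals exact ⟨_, by simp, h⟩
  obtain ⟨k, hk, h⟩ := h
  have h1 := key k h
  have h2 : orderOf (q : ZMod r) ∈ k.divisors := Nat.mem_divisors.2
    ⟨h1, by fin_cases hk <;> simp⟩
  revert h2
  generalize orderOf (q : ZMod r) = d
  fin_cases hk <;> revert d <;> decide +kernel

theorem orderOf_dvd_24 (hn : 1 ≤ n) (hF : Fintype.card F = 2 ^ n) {r : ℕ} [hr : Fact r.Prime]
    (hr2 : r ≠ 2) (hrG : r ∣ Nat.card ↥(chevF4.group F)) :
    orderOf ((Fintype.card F : ℕ) : ZMod r) ∣ 24 := by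
  have := orderOf_mem hn hF hr2 hrG
  revert this
  generalize orderOf ((Fintype.card F : ℕ) : ZMod r) = d
  intro h
  fin_cases h <;> norm_num

/-- Over the extension of degree 24 the torus contains Sylow subgroups for the large primes. -/
theorem exists_extension (hn : 1 ≤ n) (hF : Fintype.card F = 2 ^ n) :
    ∃ (K : Type) (_ : Field K) (_ : Finite K) (ι : F →+* K) (φ : K →+* K),
      (∀ x, φ (ι x) = ι x) ∧ (∀ x, φ x = x ^ Fintype.card F) ∧
      ∀ p : ℕ, p.Prime → p ≠ 2 → p ≠ 3 → p ∣ Nat.card ↥(chevF4.group F) →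
        padicValNat p (Nat.card ↥(chevF4.group K)) =
          padicValNat p (Nat.card ↥(chevF4.diagonalSubgroup K)) := by
  obtain ⟨p0, hp0⟩ := CharP.exists F
  have : Fact p0.Prime := ⟨CharP.char_is_prime F p0⟩
  let K := FiniteField.Extension F p0 24
  let _ : Fintype K := Fintype.ofFinite K
  refine ⟨K, inferInstance, inferInstance, algebraMap F K,
    (FiniteField.Extension.frob F p0 24).toAlgHom.toRingHom,
    fun x => (FiniteField.Extension.frob F p0 24).commutes x, fun x => ?_, ?_⟩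
  · show FiniteField.Extension.frob F p0 24 x = _
    rw [FiniteField.Extension.frob_apply, Nat.card_eq_fintype_card]
  intro p hp h2 h3 hpG
  have := Fact.mk hp
  set q := Fintype.card F with hq
  have hQ : Fintype.card K = q ^ 24 := by
    rw [Fintype.card_eq_nat_card, FiniteField.natCard_extension, Nat.card_eq_fintype_card]
  have hq2 : 2 ≤ q := Fintype.one_lt_card
  have hpq : ¬ p ∣ q := odd_card hn hF hp h2
  have hsmall : ∀ m : ℕ, m ∣ 2 ^ 20 * 3 ^ 20 → ¬ p ∣ m := fun m hm hd => by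
    rcases hp.dvd_mul.1 (hd.trans hm) with h | h
    · exact h2 ((Nat.prime_dvd_prime_iff_eq hp Nat.prime_two).1 (hp.dvd_of_dvd_pow h))
    · exact h3 ((Nat.prime_dvd_prime_iff_eq hp Nat.prime_three).1 (hp.dvd_of_dvd_pow h))
  have hc : (chevF4, [2, 6, 8, 12]) ∈ CrossCharSylow.types := by simp [CrossCharSylow.types]
  obtain ⟨e1, e2⟩ := CrossCharSylow.valuations hc K (r := p)
    (fun h => hpq (hp.dvd_of_dvd_pow (hQ ▸ h))) (hsmall _ (by norm_num))
  obtain ⟨m, hm⟩ := orderOf_dvd_24 hn hF h2 hpG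
  have hval : ∀ k, k ∣ 2 ^ 10 * 3 ^ 10 → padicValNat p ((q ^ 24) ^ k - 1) =
      padicValNat p (q ^ orderOf (q : ZMod p) - 1) := fun k hk => by
    rw [← pow_mul, show 24 * k = orderOf (q : ZMod p) * (m * k) by rw [← mul_assoc, ← hm],
      Zsigmondy.padicValNat_pow_mul_sub_one hq2 hpq
        (hsmall _ ((Dvd.intro_left (orderOf (q : ZMod p) * 1) (by rw [hm]; ring) :
          m * k ∣ 24 * k).trans ((mul_dvd_mul_left 24 hk).trans (by norm_num)))),
      Zsigmondy.padicValNat_pow_orderOf_sub_one hq2 hpq]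
  rw [e1, e2, hQ, show q ^ 24 - 1 = (q ^ 24) ^ 1 - 1 by rw [pow_one], hval 1 (one_dvd _)]
  simp only [List.map_cons, List.map_nil, List.sum_cons, List.sum_nil,
    hval 2 (by norm_num), hval 6 (by norm_num), hval 8 (by norm_num), hval 12 (by norm_num)]
  show _ = 4 * _
  ring

theorem orderOf_conj_gmap {K : Type*} [Field K] (ι : F →+* K) (g : GL chevF4.Idx K)
    (x : ↥(chevF4.group F)) :
    orderOf (g * gmap chevF4 ι (x : GL chevF4.Idx F) * g⁻¹) = orderOf x := by
  rw [← MulAut.conj_apply, MulEquiv.orderOf_eq, orderOf_injective _ (gmap_injective ι),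
    Subgroup.orderOf_coe]

/-- Elements of order `r s` make the functionals compatible. -/
theorem no_odd_pair (hn : 1 ≤ n) (hF : Fintype.card F = 2 ^ n) {r s : ℕ} [hr : Fact r.Prime]
    [hs : Fact s.Prime] (hrs : r ≠ s) (hrG : r ∣ Nat.card ↥(chevF4.group F))
    (hsG : s ∣ Nat.card ↥(chevF4.group F))
    (hk : (orderOf ((Fintype.card F : ℕ) : ZMod r) = 3 ∧
        orderOf ((Fintype.card F : ℕ) : ZMod s) = 4) ∨
      (orderOf ((Fintype.card F : ℕ) : ZMod r) = 3 ∧
        orderOf ((Fintype.card F : ℕ) : ZMod s) = 6) ∨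
      (orderOf ((Fintype.card F : ℕ) : ZMod r) = 4 ∧
        orderOf ((Fintype.card F : ℕ) : ZMod s) = 6))
    (x : ↥(chevF4.group F)) : orderOf x ≠ r * s := by
  intro hx
  obtain ⟨hr2, hr3, -⟩ :=
    five_le_of_orderOf (a := ((Fintype.card F : ℕ) : ZMod r)) rfl (by omega)
  obtain ⟨hs2, hs3, -⟩ :=
    five_le_of_orderOf (a := ((Fintype.card F : ℕ) : ZMod s)) rfl (by omega)
  obtain ⟨K, _, _, ι, φ, hφι, hφ, hv⟩ := exists_extension hn hF
  obtain ⟨g, -, hxT, w, hw⟩ := exists_conj_toral ι φ hφι hφ x fun p hp hd => by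
    rw [hx] at hd
    rcases hp.dvd_mul.1 hd with h | h
    · obtain rfl := (Nat.prime_dvd_prime_iff_eq hp hr.out).1 h
      exact hv p hp hr2 hr3 hrG
    · obtain rfl := (Nat.prime_dvd_prime_iff_eq hp hs.out).1 h
      exact hv p hp hs2 hs3 hsG
  have hpowT : ∀ k : ℕ, g * gmap chevF4 ι ((x ^ k : ↥(chevF4.group F)) : GL chevF4.Idx F) * g⁻¹ ∈
      chevF4.diagonalSubgroup K := fun k => by
    rw [Subgroup.coe_pow, map_pow, ← conj_pow]
    exact pow_mem hxT k
  obtain ⟨L, hL⟩ := Sys.exists_wperm S K w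
  have key : ∀ (t k : ℕ) [Fact t.Prime], orderOf (x ^ k) = t →
      ∃ ψ : Fin 4 → ZMod t, ψ ≠ 0 ∧ Scaled ψ L ((Fintype.card F : ℕ) : ZMod t) := by
    intro t k _ ht
    have h := hpowT k
    rw [Sys.diagonal_eq S] at h
    obtain ⟨c, hc⟩ := h
    have hfix := hw (x ^ k) (hpowT k)
    rw [← hc] at hfix
    obtain ⟨ψ, h1, h2, -⟩ := exists_scaled c (by rw [hc, orderOf_conj_gmap, ht]) w _ hfix L hL
    exact ⟨ψ, h1, h2⟩
  obtain ⟨a, ha, ha'⟩ := key r s (by
    rw [orderOf_pow' x hs.out.ne_zero, hx, Nat.gcd_eq_right (dvd_mul_left s r),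
      Nat.mul_div_cancel _ hs.out.pos])
  obtain ⟨b, hb, hb'⟩ := key s r (by
    rw [orderOf_pow' x hr.out.ne_zero, hx, Nat.gcd_eq_right (dvd_mul_right r s),
      Nat.mul_div_cancel_left _ hr.out.pos])
  exact false_of_pair ha hb ha' hb' hk

theorem orderOf_of_phi8 {t : ℕ} [Fact t.Prime] (ht : t ≠ 2) {b : ZMod t} (h : b ^ 4 + 1 = 0) :
    orderOf b = 8 := by
  have h2 : (2 : ZMod t) ≠ 0 := fun h2 => ht
    ((Nat.prime_dvd_prime_iff_eq Fact.out Nat.prime_two).1
      ((ZMod.natCast_eq_zero_iff 2 t).1 (by exact_mod_cast h2)))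
  refine orderOf_eq_prime_pow (p := 2) (n := 2) (fun h1 => h2 ?_) ?_
  · simp only [Nat.reducePow] at h1
    linear_combination h - h1
  · simp only [Nat.reducePow, Nat.reduceAdd]
    linear_combination (b ^ 4 - 1) * h

theorem phi12_three : ∀ b : ZMod 3, b ^ 4 - b ^ 2 + 1 ≠ 0 := by decide

theorem orderOf_of_phi12 {t : ℕ} [ht' : Fact t.Prime] (ht : t ≠ 2) {b : ZMod t}
    (h : b ^ 4 - b ^ 2 + 1 = 0) : orderOf b = 12 := by
  have h3 : t ≠ 3 := fun h3 => by
    subst h3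
    exact phi12_three b h
  have h6 : b ^ 6 = -1 := by linear_combination (b ^ 2 + 1) * h
  have hd : orderOf b ∣ 12 := orderOf_dvd_of_pow_eq_one (by linear_combination (b ^ 6 - 1) * h6)
  have hcast : ∀ m : ℕ, (m : ZMod t) = 0 → t ∣ m := fun m => (ZMod.natCast_eq_zero_iff m t).1
  have hn6 : ¬ orderOf b ∣ 6 := fun hd6 => by
    have h1 := orderOf_dvd_iff_pow_eq_one.1 hd6
    have := hcast 2 (by push_cast; linear_combination h6 - h1)
    exact ht ((Nat.prime_dvd_prime_iff_eq ht'.out Nat.prime_two).1 this)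
  have hn4 : ¬ orderOf b ∣ 4 := fun hd4 => by
    have h1 := orderOf_dvd_iff_pow_eq_one.1 hd4
    have h2 : b ^ 2 = -1 := by linear_combination h6 - b ^ 2 * h1
    have := hcast 3 (by push_cast; linear_combination h - h1 + h2)
    exact h3 ((Nat.prime_dvd_prime_iff_eq ht'.out Nat.prime_three).1 this)
  have hm : orderOf b ∈ Nat.divisors 12 := Nat.mem_divisors.2 ⟨hd, by norm_num⟩
  have key : ∀ d ∈ Nat.divisors 12, ¬ d ∣ 6 → ¬ d ∣ 4 → d = 12 := by decide
  exact key _ hm hn6 hn4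

/-- Elements of order `r s` when `q` has order eight or twelve modulo `s`. -/
theorem top_pair (hn : 1 ≤ n) (hF : Fintype.card F = 2 ^ n) {r s : ℕ} [hr : Fact r.Prime]
    [hs : Fact s.Prime] (hrs : r ≠ s) (hsG : s ∣ Nat.card ↥(chevF4.group F))
    (hk : orderOf ((Fintype.card F : ℕ) : ZMod s) = 8 ∨
      orderOf ((Fintype.card F : ℕ) : ZMod s) = 12)
    (x : ↥(chevF4.group F)) (hx : orderOf x = r * s) :
    r ≠ 2 ∧ orderOf ((Fintype.card F : ℕ) : ZMod r) =
      orderOf ((Fintype.card F : ℕ) : ZMod s) := by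
  obtain ⟨hs2, hs3, -⟩ :=
    five_le_of_orderOf (a := ((Fintype.card F : ℕ) : ZMod s)) rfl (by omega)
  obtain ⟨K, _, _, ι, φ, hφι, hφ, hv⟩ := exists_extension hn hF
  have hb : orderOf (x ^ s) = r := by
    rw [orderOf_pow' x hs.out.ne_zero, hx, Nat.gcd_eq_right (dvd_mul_left s r),
      Nat.mul_div_cancel _ hs.out.pos]
  have ha : orderOf (x ^ r) = s := by
    rw [orderOf_pow' x hr.out.ne_zero, hx, Nat.gcd_eq_right (dvd_mul_right r s),
      Nat.mul_div_cancel_left _ hr.out.pos]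
  obtain ⟨g, hg, haT, w, hw⟩ := exists_conj_toral ι φ hφι hφ (x ^ r) fun p hp hd => by
    rw [ha] at hd
    obtain rfl := (Nat.prime_dvd_prime_iff_eq hp hs.out).1 hd
    exact hv p hp hs2 hs3 hsG
  obtain ⟨L, hL⟩ := Sys.exists_wperm S K w
  have haT' := haT
  rw [Sys.diagonal_eq S] at haT'
  obtain ⟨c, hc⟩ := haT'
  have hfa := hw _ haT
  rw [← hc] at hfa
  obtain ⟨ψ, hψ, hsc, hz, -, heq⟩ :=
    exists_scaled c (by rw [hc, orderOf_conj_gmap, ha]) w _ hfa L hL
  have hreg : (∀ t : Fin chevF4.nroots, ev ψ (rc t) ≠ 0) ∧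
      ∀ (t : ℕ) [Fact t.Prime] (χ : Fin 4 → ZMod t) (b : ZMod t), t ≠ 2 → χ ≠ 0 → Scaled χ L b →
        orderOf b = orderOf ((Fintype.card F : ℕ) : ZMod s) := by
    rcases hk with h | h
    · obtain ⟨h1, h2⟩ := top_eight hψ hsc h
      exact ⟨h1, fun t _ χ b ht hχ hb => by rw [h, orderOf_of_phi8 ht (h2 χ b hχ hb)]⟩
    · obtain ⟨h1, h2⟩ := top_twelve hψ hsc h
      exact ⟨h1, fun t _ χ b ht hχ hb => by rw [h, orderOf_of_phi12 ht (h2 χ b hχ hb)]⟩
  have hbT : g * gmap chevF4 ι ((x ^ s : ↥(chevF4.group F)) : GL chevF4.Idx F) * g⁻¹ ∈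
      chevF4.diagonalSubgroup K := by
    refine ChevTori.mem_diagonal_of_regular S c (fun t ht he => hreg.1 ⟨t, ht⟩ (hz ⟨t, ht⟩ he))
      (fun L' hL' => eq_one_of_fixed hs2 hs3 (fun t => ?_) hreg.1)
      (mul_mem (mul_mem hg (gmap_mem S ι (x ^ s).2)) (inv_mem hg)) ?_
    · rw [one_mul]
      exact heq _ _ (hL' t)
    · rw [hc, Subgroup.coe_pow, Subgroup.coe_pow, map_pow, map_pow, ← conj_pow, ← conj_pow,
        ← pow_add, ← pow_add, add_comm]
  have hbT' := hbT
  rw [Sys.diagonal_eq S] at hbT'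
  obtain ⟨c', hc'⟩ := hbT'
  have hfb := hw _ hbT
  rw [← hc'] at hfb
  obtain ⟨χ, hχ, hscb, -⟩ :=
    exists_scaled c' (by rw [hc', orderOf_conj_gmap, hb]) w _ hfb L hL
  have hr2 : r ≠ 2 := by
    rintro rfl
    have h2K : (2 : K) = 0 := by rw [← map_ofNat ι 2, two_eq_zero hn hF, map_zero]
    have hone : ∀ t : Fin chevF4.nroots, torusVal chevF4 c' t = 1 := fun t => by
      have h1 : tor chevF4 K (c' ^ 2) = tor chevF4 K 1 := by
        have h := pow_orderOf_eq_one (tor chevF4 K c')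
        rw [hc', orderOf_conj_gmap, hb, ← hc', ← map_pow] at h
        rw [h, map_one]
      have h3 : torusVal chevF4 c' t ^ 2 = 1 := by
        rw [← torusVal_pow, torusVal_eq_of_tor h1 t]
        simp [torusVal]
      refine Units.ext ?_
      have h4 := congrArg (Units.val) h3
      rw [Units.val_pow_eq_pow_val, Units.val_one] at h4
      have h5 : ((torusVal chevF4 c' t : Kˣ) : K) - 1 = 0 := pow_eq_zero_iff (n := 2) two_ne_zero |>.1
        (by linear_combination h4 - (((torusVal chevF4 c' t : Kˣ) : K) - 1) * h2K)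
      rw [Units.val_one]
      linear_combination h5
    have : orderOf (tor chevF4 K c') = 2 := by rw [hc', orderOf_conj_gmap, hb]
    rw [show tor chevF4 K c' = tor chevF4 K 1 from tor_ext' fun m => by
      rw [hone]; simp [torusVal], map_one, orderOf_one] at this
    omega
  exact ⟨hr2, hreg.2 r χ _ hr2 hχ hscb⟩

end CfsgLib.F4PrimeGraph
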