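import Cfsg.Agent.F4PrimeGraph.WeylDefs

/-! The checks on all elements of the Weyl group of type F4. -/

set_option autoImplicit false

namespace CfsgLib.F4PrimeGraph

theorem wtab_closed : wtab.all (·.all okClosed) = true := by decide +kernel

theorem wtab_pair : wtab.all (·.all okPair) = true := by decide +kernel

theorem wtab_top8 : wtab.all (·.all (okTop phi8)) = true := by decide +kernel

theorem wtab_top12 : wtab.all (·.all (okTop phi12)) = true := by decide +kernel

theorem wtab_orbit : wtab.all (·.all okOrbit) = true := by decide +kernel

theorem memTab_one : memTab (code 33 27 25 24) = true := by decide +kernel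

end CfsgLib.F4PrimeGraph
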