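import Cfsg.Agent.F4PrimeGraph.Exists

/-! Six words in the Weyl group of type F4 and their characteristic polynomials. -/

set_option autoImplicit false

namespace CfsgLib.F4PrimeGraph

open Cfsg.Lie CfsgLib.Chevalley

/-- Cyclotomic factors one, two, four. -/
def wordA : List (Fin chevF4.rank) := [⟨2, by decide⟩, ⟨1, by decide⟩, ⟨2, by decide⟩, ⟨1, by decide⟩, ⟨0, by decide⟩]

theorem quad_A : quad wordA = 1187648 := by
  simp only [wordA, quad_cons, quad_nil]
  decide +kernel

theorem chi_A (m : ℤ) : chiAt (quad wordA) m = (m - 1) * (m + 1) * (m ^ 2 + 1) := by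
  have h0 : act 1187648 (1, 0, 0, 0) = (-1, -2, -1, 0) := by decide +kernel
  have h1 : act 1187648 (0, 1, 0, 0) = (1, 1, 1, 0) := by decide +kernel
  have h2 : act 1187648 (0, 0, 1, 0) = (0, 0, -1, 0) := by decide +kernel
  have h3 : act 1187648 (0, 0, 0, 1) = (0, 2, 2, 1) := by decide +kernel
  rw [quad_A]
  simp only [chiAt, detOf, h0, h1, h2, h3, Prod.mk_add_mk, det4]
  ring

theorem fix_A : act (quad wordA) (rc 47) = rc 47 := by
  rw [quad_A]
  decide +kernel

/-- Cyclotomic factors one, two, three. -/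
def wordB : List (Fin chevF4.rank) := [⟨3, by decide⟩, ⟨1, by decide⟩, ⟨0, by decide⟩]

theorem quad_B : quad wordB = 1515239 := by
  simp only [wordB, quad_cons, quad_nil]
  decide +kernel

theorem chi_B (m : ℤ) : chiAt (quad wordB) m = (m - 1) * (m + 1) * (m ^ 2 + m + 1) := by
  have h0 : act 1515239 (1, 0, 0, 0) = (-1, -1, 0, 0) := by decide +kernel
  have h1 : act 1515239 (0, 1, 0, 0) = (1, 0, 0, 0) := by decide +kernel
  have h2 : act 1515239 (0, 0, 1, 0) = (0, 2, 1, 1) := by decide +kernel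
  have h3 : act 1515239 (0, 0, 0, 1) = (0, 0, 0, -1) := by decide +kernel
  rw [quad_B]
  simp only [chiAt, detOf, h0, h1, h2, h3, Prod.mk_add_mk, det4]
  ring

/-- Cyclotomic factors one, two, six. -/
def wordC : List (Fin chevF4.rank) := [⟨2, by decide⟩, ⟨1, by decide⟩, ⟨0, by decide⟩]

theorem quad_C : quad wordC = 1404602 := by
  simp only [wordC, quad_cons, quad_nil]
  decide +kernel

theorem chi_C (m : ℤ) : chiAt (quad wordC) m = (m - 1) * (m + 1) * (m ^ 2 - m + 1) := by
  have h0 : act 1404602 (1, 0, 0, 0) = (-1, -1, -1, 0) := by decide +kernel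
  have h1 : act 1404602 (0, 1, 0, 0) = (1, 0, 0, 0) := by decide +kernel
  have h2 : act 1404602 (0, 0, 1, 0) = (0, 2, 1, 0) := by decide +kernel
  have h3 : act 1404602 (0, 0, 0, 1) = (0, 0, 1, 1) := by decide +kernel
  rw [quad_C]
  simp only [chiAt, detOf, h0, h1, h2, h3, Prod.mk_add_mk, det4]
  ring

theorem fix_C : act (quad wordC) (rc 47) = rc 47 := by
  rw [quad_C]
  decide +kernel

/-- Cyclotomic factors eight. -/
def wordD : List (Fin chevF4.rank) := [⟨3, by decide⟩, ⟨2, by decide⟩, ⟨1, by decide⟩, ⟨2, by decide⟩, ⟨1, by decide⟩, ⟨0, by decide⟩]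

theorem quad_D : quad wordD = 1079312 := by
  simp only [wordD, quad_cons, quad_nil]
  decide +kernel

theorem chi_D (m : ℤ) : chiAt (quad wordD) m = m ^ 4 + 1 := by
  have h0 : act 1079312 (1, 0, 0, 0) = (-1, -2, -1, -1) := by decide +kernel
  have h1 : act 1079312 (0, 1, 0, 0) = (1, 1, 1, 1) := by decide +kernel
  have h2 : act 1079312 (0, 0, 1, 0) = (0, 0, -1, -1) := by decide +kernel
  have h3 : act 1079312 (0, 0, 0, 1) = (0, 2, 2, 1) := by decide +kernel
  rw [quad_D]
  simp only [chiAt, detOf, h0, h1, h2, h3, Prod.mk_add_mk, det4]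
  ring

/-- Cyclotomic factors twelve. -/
def wordE : List (Fin chevF4.rank) := [⟨3, by decide⟩, ⟨2, by decide⟩, ⟨1, by decide⟩, ⟨0, by decide⟩]

theorem quad_E : quad wordE = 1294057 := by
  simp only [wordE, quad_cons, quad_nil]
  decide +kernel

theorem chi_E (m : ℤ) : chiAt (quad wordE) m = m ^ 4 - m ^ 2 + 1 := by
  have h0 : act 1294057 (1, 0, 0, 0) = (-1, -1, -1, -1) := by decide +kernel
  have h1 : act 1294057 (0, 1, 0, 0) = (1, 0, 0, 0) := by decide +kernel
  have h2 : act 1294057 (0, 0, 1, 0) = (0, 2, 1, 1) := by decide +kernel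
  have h3 : act 1294057 (0, 0, 0, 1) = (0, 0, 1, 0) := by decide +kernel
  rw [quad_E]
  simp only [chiAt, detOf, h0, h1, h2, h3, Prod.mk_add_mk, det4]
  ring

/-- Cyclotomic factors one, one, three. -/
def wordF : List (Fin chevF4.rank) := [⟨1, by decide⟩, ⟨0, by decide⟩]

theorem quad_F : quad wordF = 1515192 := by
  simp only [wordF, quad_cons, quad_nil]
  decide +kernel

theorem chi_F (m : ℤ) : chiAt (quad wordF) m = (m - 1) ^ 2 * (m ^ 2 + m + 1) := by
  have h0 : act 1515192 (1, 0, 0, 0) = (-1, -1, 0, 0) := by decide +kernel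
  have h1 : act 1515192 (0, 1, 0, 0) = (1, 0, 0, 0) := by decide +kernel
  have h2 : act 1515192 (0, 0, 1, 0) = (0, 2, 1, 0) := by decide +kernel
  have h3 : act 1515192 (0, 0, 0, 1) = (0, 0, 0, 1) := by decide +kernel
  rw [quad_F]
  simp only [chiAt, detOf, h0, h1, h2, h3, Prod.mk_add_mk, det4]
  ring

theorem fix_F : act (quad wordF) (rc 47) = rc 47 := by
  rw [quad_F]
  decide +kernel

end CfsgLib.F4PrimeGraph
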